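import Cfsg.Agent.H975.Ccp.PslC

/-!
# The row `PSL_2(q)` of S4114: field automorphisms of odd prime order, the small fields
-/

set_option autoImplicit false
set_option linter.unusedSectionVars false

namespace Cfsg.Agent.H975.Ccp

open Subgroup Cfsg Matrix Cfsg.Agent.H520
open Cfsg.Agent.ClassicalGeometry.AutPSL.Root Cfsg.Agent.ClassicalGeometry.AutPSL.Auto
  Cfsg.Agent.ClassicalGeometry.AutPSL.Main Cfsg.Agent.BpLin Cfsg.Agent.Schreier.ClassPSL
open Cfsg.Agent.H109.EndPsl Cfsg.Agent.H975.Rad

local notation "S2" => Matrix.SpecialLinearGroup (Fin 2)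
local notation "P2" => Matrix.ProjectiveSpecialLinearGroup (Fin 2)

section Main

variable {F : Type*} [Field F] [Finite F]

/-- conjugation by a matrix fixed by `τ` -/
theorem conj_lift {A B : GL (Fin 2) F} {τ : F ≃+* F} (hB : mg τ B = B) :
    (lift (cj B) : MulAut (P2 F))⁻¹ * lift (cj A * fld τ) * ((lift (cj B))⁻¹)⁻¹ = lift (cj (B⁻¹ * A * B) * fld τ) := by
  rw [inv_inv, ← map_inv lift, ← map_mul lift, ← map_mul lift, mul_assoc, mul_assoc (cj A), fld_mul_cj, hB,
    ← map_inv cj, ← mul_assoc, ← mul_assoc, ← map_mul cj, ← map_mul cj]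

set_option maxHeartbeats 2000000 in
/-- the companion matrices over the fields of two or three elements -/
theorem false_comp {r : ℕ} [hr : Fact r.Prime] [CharP F r] (hr23 : r = 2 ∨ r = 3) {C : GL (Fin 2) F} {τ σ : F ≃+* F}
    (h : Cfg (lift (cj C * fld τ) : MulAut (P2 F))) {p : ℕ} (hp : Odd p) (hσ : σ ^ p = 1)
    (hτσ : ∀ x, σ x = x → τ x = x) (hτ1 : τ ≠ 1)
    (hz : (lift (fld τ) : MulAut (P2 F)) ∈ zpowers (lift (cj C * fld τ))) {d t : F}
    (hC : (C : Matrix (Fin 2) (Fin 2) F) = Rad.comp d t) (hd : d = 1 ∨ d = -1) (ht : t = 0 ∨ t = 1 ∨ t = -1) :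
    False := by
  have hd0 : d ≠ 0 := by
    rcases hd with rfl | rfl
    · exact one_ne_zero
    · exact neg_ne_zero.2 one_ne_zero
  have hτd : τ d = d := by
    rcases hd with rfl | rfl
    · exact map_one τ
    · rw [map_neg, map_one]
  have hτt : τ t = t := by
    rcases ht with rfl | rfl | rfl
    · exact map_zero τ
    · exact map_one τ
    · rw [map_neg, map_one]
  have hmgC : mg τ C = C := by
    apply Units.ext
    rw [coe_mg, hC]
    ext i j
    fin_cases i <;> fin_cases j <;> simp [Rad.comp, hτd, hτt]
  have hcomm : (lift (cj C * fld τ) : MulAut (P2 F)) = lift (fld τ) * lift (cj C) := by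
    rw [← map_mul, fld_mul_cj, hmgC]
  have hx : (lift (cj C) : MulAut (P2 F)) ∈ zpowers (lift (cj C * fld τ)) := by
    have h1 : (lift (cj C) : MulAut (P2 F)) = (lift (fld τ))⁻¹ * lift (cj C * fld τ) := by
      rw [hcomm, inv_mul_cancel_left]
    rw [h1]
    exact mul_mem (inv_mem hz) (mem_zpowers _)
  by_cases hdisc : t ^ 2 = 4 * d
  · obtain ⟨l, hl1, hl2, hl3⟩ : ∃ l : F, τ l = l ∧ 2 * l = t ∧ l ^ 2 = d := by
      rcases hr23 with rfl | rfl
      · have h20 : (2 : F) = 0 := by exact_mod_cast CharP.cast_eq_zero F 2
        have h1 : t * t = 0 := by linear_combination hdisc + 2 * d * h20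
        refine ⟨1, map_one τ, ?_, ?_⟩
        · rw [mul_self_eq_zero.1 h1, h20, zero_mul]
        · rcases hd with rfl | rfl
          · ring
          · linear_combination h20
      · have h30 : (3 : F) = 0 := by exact_mod_cast CharP.cast_eq_zero F 3
        refine ⟨-t, by rw [map_neg, hτt], ?_, ?_⟩
        · linear_combination -t * h30
        · linear_combination hdisc + d * h30
    have hl0 : l ≠ 0 := by
      rintro rfl
      apply hd0
      rw [← hl3]
      ring
    let B : GL (Fin 2) F := Matrix.GeneralLinearGroup.mkOfDetNeZero !![-l, 1; 1, 0] (by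
      rw [Matrix.det_fin_two_of]; simp)
    have hBc : (B : Matrix (Fin 2) (Fin 2) F) = !![-l, 1; 1, 0] := rfl
    let U : GL (Fin 2) F := Matrix.GeneralLinearGroup.mkOfDetNeZero !![l, 1; 0, l] (by
      rw [Matrix.det_fin_two_of]; simpa using hl0)
    have hUc : (U : Matrix (Fin 2) (Fin 2) F) = !![l, 1; 0, l] := rfl
    have hB : mg τ B = B := by
      apply Units.ext
      rw [coe_mg, hBc]
      ext i j
      fin_cases i <;> fin_cases j <;> simp [hl1]
    have hCB : B⁻¹ * C * B = U := by
      rw [mul_assoc, inv_mul_eq_iff_eq_mul]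
      apply Units.ext
      rw [Units.val_mul, Units.val_mul, hC, hBc, hUc]
      ext i j
      fin_cases i <;> fin_cases j <;> simp [Rad.comp, Matrix.mul_apply, Fin.sum_univ_two]
      · linear_combination -hl3
      · linear_combination -hl2
    have h2 := cfg_conj h (lift (cj B))⁻¹
    rw [conj_lift hB, hCB] at h2
    have hU : ∀ y : F, cj U (um y) = um y := by
      intro y
      apply Subtype.ext
      have h3 : (cj U (um y) : Matrix (Fin 2) (Fin 2) F) * U = U * um y := by
        rw [coe_cj, mul_assoc, ← Units.val_mul, inv_mul_cancel, Units.val_one, mul_one]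
      have h4 : (um y : Matrix (Fin 2) (Fin 2) F) * U = U * um y := by
        rw [hUc, coe_um]
        ext i j
        fin_cases i <;> fin_cases j <;> simp [Matrix.mul_apply, Fin.sum_univ_two]
        ring
      have h5 := congrArg (fun M => M * ((U⁻¹ : GL (Fin 2) F) : Matrix (Fin 2) (Fin 2) F)) (h3.trans h4.symm)
      simp only [mul_assoc] at h5
      rw [← Units.val_mul, mul_inv_cancel, Units.val_one, mul_one, mul_one] at h5
      exact h5
    refine false_um h2 hp hσ hτσ ?_ hτ1
    intro x
    rw [lift_pr, MulAut.mul_apply, fld_um, hU]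
  · rcases hr23 with rfl | rfl
    · -- `r = 2`: an element of order three
      have h20 : (2 : F) = 0 := by exact_mod_cast CharP.cast_eq_zero F 2
      have ht1 : t = 1 := by
        rcases ht with rfl | rfl | rfl
        · exfalso
          apply hdisc
          linear_combination -2 * d * h20
        · rfl
        · linear_combination -h20
      have hd1 : d = 1 := by
        rcases hd with rfl | rfl
        · rfl
        · linear_combination -h20
      subst ht1 hd1
      let c : S2 F := ⟨Rad.comp 1 1, by rw [Rad.comp, Matrix.det_fin_two_of]; ring⟩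
      have hc : (c : Matrix (Fin 2) (Fin 2) F) = !![0, -1; 1, 1] := rfl
      have hx' : MulAut.conj (pr c) ∈ zpowers (lift (cj C * fld τ) : MulAut (P2 F)) := by
        rw [← lift_conj, ← cj_eq_conj (B := C) (b := c) (c := 1) (by rw [hC, one_smul])]
        exact hx
      refine false_inn (r := 2) h hx' Nat.prime_three (by norm_num) ?_ (by norm_num)
      have h3f : Fact (Nat.Prime 3) := ⟨Nat.prime_three⟩
      apply orderOf_eq_prime
      · rw [← map_pow]
        apply pr_eq_one
        rw [Matrix.SpecialLinearGroup.coe_pow, hc, pow_succ, pow_two]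
        refine ⟨?_, ?_, ?_⟩ <;> simp [Matrix.mul_apply, Fin.sum_univ_two]
      · intro h8
        rw [← map_one (pr : S2 F →* P2 F)] at h8
        obtain ⟨k, hk⟩ := exists_smul_of_pr_eq h8.symm
        have e1 := congrFun (congrFun hk 1) 0
        rw [hc] at e1
        simp at e1
    · -- `r = 3`
      have h30 : (3 : F) = 0 := by exact_mod_cast CharP.cast_eq_zero F 3
      have h10 : (1 : F) ≠ 0 := one_ne_zero
      have hx4 : (lift (cj C) : MulAut (P2 F)) ^ 4 = 1 := by
        rw [← map_pow, ← map_pow]
        have h1 : (C ^ 4 : GL (Fin 2) F).1 = (C : Matrix (Fin 2) (Fin 2) F) * C * (C * C) := by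
          rw [Units.val_pow_eq_pow_val, pow_succ, pow_succ, pow_two, mul_assoc]
        rw [hC] at h1
        have h2 : (Rad.comp d t * Rad.comp d t : Matrix (Fin 2) (Fin 2) F) = !![-d, -(d * t); t, t ^ 2 - d] := by
          ext i j
          fin_cases i <;> fin_cases j <;> simp [Rad.comp, Matrix.mul_apply, Fin.sum_univ_two]
          ring
        rw [h2] at h1
        have key : t * (t ^ 2 - 2 * d) = 0 := by
          rcases ht with rfl | rfl | rfl
          · ring
          · rcases hd with rfl | rfl
            · exfalso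
              apply hdisc
              linear_combination -h30
            · linear_combination h30
          · rcases hd with rfl | rfl
            · exfalso
              apply hdisc
              linear_combination -h30
            · linear_combination -h30
        rw [cj_eq_one_of_sc (A := C ^ 4), map_one]
        · rw [h1]
          simp [Matrix.mul_apply, Fin.sum_univ_two]
          linear_combination -d * key
        · rw [h1]
          simp [Matrix.mul_apply, Fin.sum_univ_two]
          linear_combination key
        · rw [h1]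
          simp [Matrix.mul_apply, Fin.sum_univ_two]
          linear_combination -t * key
      -- it is enough to find `e`
      have fin : ∀ a b c' d' : F, (τ a = a ∧ τ b = b ∧ τ c' = c' ∧ τ d' = d') → a * d' - b * c' = 1 →
          d' * (d' - t * c') - b * (d⁻¹ * ((a + t * c') * t - (b + t * d'))) - c' * -(d * c') + a * (a + t * c') = 0 →
          False := by
        intro a b c' d' hfix hdet htr
        let e : S2 F := ⟨!![a, b; c', d'], by rw [Matrix.det_fin_two_of]; exact hdet⟩
        have he : (e : Matrix (Fin 2) (Fin 2) F) = !![a, b; c', d'] := rfl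
        have hei : ((e⁻¹ : S2 F) : Matrix (Fin 2) (Fin 2) F) = !![d', -b; -c', a] := by
          rw [Matrix.SpecialLinearGroup.coe_inv, Matrix.adjugate_fin_two, he]
          ext i j
          fin_cases i <;> fin_cases j <;> simp
        have hze : (lift (fld τ) : MulAut (P2 F)) (pr e) = pr e := by
          rw [lift_pr]
          congr 1
          apply Subtype.ext
          ext i j
          rw [coe_fld_apply, he]
          fin_cases i <;> fin_cases j <;> simp [hfix]
        have hm : pr (e⁻¹ * cj C e) = (pr e)⁻¹ * (lift (cj C) : MulAut (P2 F)) (pr e) := by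
          rw [lift_pr, map_mul, map_inv]
        have htrm : ((e⁻¹ * cj C e : S2 F) : Matrix (Fin 2) (Fin 2) F).trace = 0 := by
          rw [Matrix.SpecialLinearGroup.coe_mul, cj_comp hC hd0, hei, he, Matrix.trace_fin_two]
          simp [Matrix.mul_apply, Fin.sum_univ_two]
          linear_combination htr
        refine false_two h hx hz hcomm hx4 hze hm htrm ?_
        by_contra hns
        obtain ⟨k, hk⟩ := ns_cj hns
        rw [hk, Matrix.trace_smul, Matrix.trace_one, Fintype.card_fin, smul_eq_mul] at htrm
        have hk0 : k = 0 := by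
          have h1 : k * 3 = 0 := by rw [h30, mul_zero]
          push_cast at htrm
          linear_combination h1 - htrm
        have h1 := (e⁻¹ * cj C e).2
        rw [hk, hk0, zero_smul, Matrix.det_zero] at h1
        exact zero_ne_one h1
      have e0 := map_zero τ
      have e1 := map_one τ
      have e2 : τ (-1) = -1 := by rw [map_neg, map_one]
      rcases ht with rfl | ht
      · rcases hd with rfl | rfl
        · refine fin 1 1 0 1 ⟨e1, e1, e0, e1⟩ (by ring) ?_
          rw [inv_one]
          linear_combination h30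
        · refine fin 1 1 1 (-1) ⟨e1, e1, e1, e2⟩ (by linear_combination -h30) ?_
          rw [inv_neg, inv_one]
          ring
      · have ht2 : t ^ 2 = 1 := by
          rcases ht with rfl | rfl <;> ring
        rcases hd with rfl | rfl
        · exfalso
          apply hdisc
          linear_combination ht2 - h30
        · refine fin 0 1 (-1) 0 ⟨e0, e1, e2, e0⟩ (by ring) ?_
          rw [inv_neg, inv_one]
          linear_combination -ht2 - h30

/-- **(b), the small fields.** -/
theorem false_small {r : ℕ} [hr : Fact r.Prime] [CharP F r] (hr23 : r = 2 ∨ r = 3) {α : MulAut (P2 F)} (h : Cfg α)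
    {σ : F ≃+* F} {p : ℕ} (hp : Odd p) (hσ : σ ^ p = 1) (h1 : σ ≠ 1) (hy : lift (fld σ) ∈ zpowers α)
    (hsm : ∀ x, σ x = x → x = 0 ∨ x = 1 ∨ x = -1) : False := by
  have := Fintype.ofFinite F
  obtain ⟨A₀, τ, rfl⟩ := surj_two r α
  obtain ⟨A, hA, e⟩ := exists_fixed (Cfg.comm_zpowers (mem_zpowers _) hy)
  rw [← e] at h hy
  have hfix : ∀ (ρ : F ≃+* F) x, σ x = x → ρ x = x := by
    intro ρ x hx
    rcases hsm x hx with rfl | rfl | rfl
    · exact map_zero ρ
    · exact map_one ρ
    · rw [map_neg, map_one]
  have hz : (lift (fld τ) : MulAut (P2 F)) ∈ zpowers (lift (cj A * fld τ)) := by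
    obtain ⟨k, hk⟩ := mem_zpowers_of_fix (hfix τ)
    have hk' : σ ^ k = τ := hk
    rw [← hk', map_zpow fld, map_zpow lift, ← map_zpow fld, hk']
    exact zpow_mem hy k
  have hτ1 : τ ≠ 1 := by
    rintro rfl
    apply h1
    obtain ⟨k, hk⟩ := hy
    have hk' : (lift (cj A * fld 1) : MulAut (P2 F)) ^ k = lift (fld σ) := hk
    have h2 : (lift (cj (A ^ k) * fld 1) : MulAut (P2 F)) = lift (fld σ) := by
      rw [← hk', map_one fld, mul_one, mul_one, map_zpow cj, map_zpow lift]
    exact (injective_aux h2).2.symm
  by_cases hNS : NS (A : Matrix (Fin 2) (Fin 2) F)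
  · obtain ⟨B, hB, hBf⟩ := exists_comp' hNS
    have hBτ : mg τ B = B := hBf τ fun i j => hfix τ _ (hA i j)
    have h2 := cfg_conj h (lift (cj B))⁻¹
    have h3 := mem_zpowers_conj hz (lift (cj B))⁻¹
    rw [conj_lift hBτ] at h2 h3
    have h4 : (lift (cj B) : MulAut (P2 F))⁻¹ * lift (fld τ) * ((lift (cj B))⁻¹)⁻¹ = lift (fld τ) := by
      have h5 := conj_lift (A := 1) hBτ
      rwa [map_one cj, one_mul, mul_one, inv_mul_cancel, map_one cj, one_mul] at h5
    rw [h4] at h3
    have hdet : (A : Matrix (Fin 2) (Fin 2) F).det ≠ 0 := by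
      have := A.isUnit
      rw [Matrix.isUnit_iff_isUnit_det] at this
      exact this.ne_zero
    have hC : ((B⁻¹ * A * B : GL (Fin 2) F) : Matrix (Fin 2) (Fin 2) F) =
        Rad.comp (A : Matrix (Fin 2) (Fin 2) F).det (A : Matrix (Fin 2) (Fin 2) F).trace := by
      rw [mul_assoc, Units.val_mul, Units.val_mul, hB, ← mul_assoc, ← Units.val_mul, inv_mul_cancel, Units.val_one,
        one_mul]
    refine false_comp hr23 h2 hp hσ (hfix τ) hτ1 h3 hC ?_ ?_
    · have h5 := hsm (A : Matrix (Fin 2) (Fin 2) F).det (by
        rw [Matrix.det_fin_two, map_sub, map_mul, map_mul, hA, hA, hA, hA])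
      exact h5.resolve_left hdet
    · exact hsm _ (by rw [Matrix.trace_fin_two, map_add, hA, hA])
  · have h2 : (cj A : MulAut (S2 F)) = 1 := by
      obtain ⟨c, hc⟩ := ns_cj hNS
      exact cj_eq_one_of_scalar (r := c) (by rw [hc, Matrix.scalar_apply, Matrix.smul_one_eq_diagonal])
    rw [h2, one_mul] at h
    exact false_um h hp hσ (hfix τ) (fun x => by rw [lift_pr, fld_um]) hτ1

end Main

end Cfsg.Agent.H975.Ccp
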